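import Cfsg.Agent.Frob.Nested

/-!
Frobenius groups from fixed-point-free actions.
-/

set_option autoImplicit false

namespace Cfsg.Agent.FC

open Frob (HasFPFModule IsFPF)

universe u v

section

variable {W : Type u} [Group W] {A : Type v} [Group A] (φ : A →* MulAut W)

theorem isFrobeniusComplement_inr [Nontrivial W] [Nontrivial A] (hφ : IsFPF φ) :
    Cfsg.IsFrobeniusComplement (SemidirectProduct.inr : A →* W ⋊[φ] A).range := by
  rw [Frob.isFrobeniusComplement_iff]
  refine ⟨?_, ?_, ?_⟩
  · intro h
    obtain ⟨a, ha⟩ := exists_ne (1 : A)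
    apply ha
    have h1 : (SemidirectProduct.inr a : W ⋊[φ] A) ∈ (SemidirectProduct.inr : A →* W ⋊[φ] A).range := ⟨a, rfl⟩
    rw [h, Subgroup.mem_bot] at h1
    exact SemidirectProduct.inr_injective (by rw [h1, map_one])
  · intro h
    obtain ⟨w, hw⟩ := exists_ne (1 : W)
    have h1 : (SemidirectProduct.inl w : W ⋊[φ] A) ∈ (SemidirectProduct.inr : A →* W ⋊[φ] A).range := by
      rw [h]; trivial
    obtain ⟨a, ha⟩ := h1
    apply hw
    have := congrArg SemidirectProduct.left ha
    simpa using this.symm
  · rintro ⟨w, a⟩ _ ⟨b, rfl⟩ hb ⟨c, hc⟩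
    have hb' : b ≠ 1 := by
      rintro rfl
      exact hb (map_one _)
    have h1 := congrArg SemidirectProduct.left hc
    simp only [SemidirectProduct.left_inr, SemidirectProduct.mul_left, SemidirectProduct.inv_left, map_one,
      mul_one, SemidirectProduct.mul_right, SemidirectProduct.right_inr] at h1
    have h2 : φ (a * b * a⁻¹) w = w := by
      have h3 : φ (a * b * a⁻¹) w⁻¹ = w⁻¹ := by
        rw [map_mul, MulAut.mul_apply]
        exact (eq_inv_of_mul_eq_one_right h1.symm)
      rw [map_inv, inv_inj] at h3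
      exact h3
    have h3 : w = 1 := hφ (a * b * a⁻¹) (by rw [Ne, conj_eq_one_iff]; exact hb') w h2
    refine ⟨a, ?_⟩
    rw [h3]; rfl

theorem index_inr [Finite A] : (SemidirectProduct.inr : A →* W ⋊[φ] A).range.index = Nat.card W := by
  have h1 := (SemidirectProduct.inr : A →* W ⋊[φ] A).range.card_mul_index
  have h2 : Nat.card (SemidirectProduct.inr : A →* W ⋊[φ] A).range = Nat.card A :=
    (Nat.card_congr (MonoidHom.ofInjective (SemidirectProduct.inr_injective (φ := φ))).toEquiv).symm
  rw [h2, SemidirectProduct.card, mul_comm] at h1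
  exact Nat.eq_of_mul_eq_mul_right Nat.card_pos h1

end

theorem hasFPFModule_of_isFPF {W : Type u} [Group W] [Finite W] [Nontrivial W] {A : Type u} [Group A] [Finite A]
    [Nontrivial A] (φ : A →* MulAut W) (hφ : IsFPF φ) : HasFPFModule A := by
  have h1 := isFrobeniusComplement_inr φ hφ
  haveI : Finite (W ⋊[φ] A) := Finite.of_equiv _ SemidirectProduct.equivProd.symm
  have h2 := Frob.IsFrobeniusComplement.hasFPFModule h1
  exact h2.of_injective (MonoidHom.ofInjective (SemidirectProduct.inr_injective (φ := φ))).toMonoidHom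
    (MonoidHom.ofInjective (SemidirectProduct.inr_injective (φ := φ))).injective

end Cfsg.Agent.FC
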