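import Cfsg.Agent.FC.Struct1
import Cfsg.Agent.S3742
import Cfsg.Agent.S0144

/-!
Non-solvable groups with fixed-point-free modules: the elements of order three generate SL(2,5).
-/

set_option autoImplicit false
set_option linter.unusedSectionVars false

namespace Cfsg.Agent.FC

open Frob (HasFPFModule)
open H4 (IsQ8)

universe u

variable {G : Type u} [Group G]

theorem solvable_of_card_pow [Finite G] {p : ℕ} [hp : Fact p.Prime] {k : ℕ} (h : Nat.card G = p ^ k) : Group.IsSolvable G := by
  by_cases hp2 : p = 2
  · subst hp2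
    exact S0144.result 2 3 k 0 (by norm_num) (by norm_num) (by rw [h, pow_zero, mul_one])
  · exact S0144.result p 2 k 0 hp.out (by norm_num) (by rw [h, pow_zero, mul_one])

theorem solvable_ext (K : Subgroup G) [K.Normal] (h1 : Group.IsSolvable K)
    (h2 : Group.IsSolvable (G ⧸ K)) : Group.IsSolvable G := by
  refine Group.isSolvable_of_ker_le_range K.subtype (QuotientGroup.mk' K) ?_
  rw [QuotientGroup.ker_mk', Subgroup.range_subtype]

theorem solvable_of_hom {H : Type*} [Group H] (f : G →* H) (hH : Group.IsSolvable H) (hk : Group.IsSolvable f.ker) :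
    Group.IsSolvable G := by
  refine Group.isSolvable_of_ker_le_range f.ker.subtype f ?_
  rw [Subgroup.range_subtype]

variable [Finite G]

theorem zgroup_of_odd (h : HasFPFModule G) (ho : Odd (Nat.card G)) : IsZGroup G := by
  constructor
  intro p hp P
  haveI : Fact p.Prime := ⟨hp⟩
  rcases psub h P.2 with hc | ⟨rfl, -⟩
  · exact hc
  · have h1 : Nat.card P = 1 := by
      have h2 : Nat.card P ∣ Nat.card G := Subgroup.card_subgroup_dvd_card _
      obtain ⟨k, hk⟩ := IsPGroup.iff_card.mp P.2
      rw [hk] at h2 ⊢
      rcases Nat.eq_zero_or_pos k with rfl | hk0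
      · rfl
      · exfalso
        have : 2 ∣ Nat.card G := (dvd_pow_self 2 hk0.ne').trans h2
        exact (Nat.not_even_iff_odd.mpr ho) (even_iff_two_dvd.mpr this)
    haveI : Subsingleton P := (Nat.card_eq_one_iff_unique.mp h1).1
    exact isCyclic_of_subsingleton

theorem solvable_of_npc2 (h : HasFPFModule G) (hn : Cfsg.HasNormalPComplement 2 G) : Group.IsSolvable G := by
  haveI : Fact (Nat.Prime 2) := ⟨Nat.prime_two⟩
  obtain ⟨P, N, hN, hc⟩ := hn
  have hodd : Odd (Nat.card N) := by
    have h1 : N.index = Nat.card P := by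
      have h2 := hc.card_mul
      have h3 := N.card_mul_index
      exact Nat.eq_of_mul_eq_mul_left Nat.card_pos (h3.trans h2.symm)
    have h2 : ¬ 2 ∣ (P : Subgroup G).index := P.not_dvd_index
    have h4 : (P : Subgroup G).index = Nat.card N := by
      have h2 := hc.card_mul
      have h3 := (P : Subgroup G).card_mul_index
      rw [mul_comm] at h3
      exact Nat.eq_of_mul_eq_mul_right Nat.card_pos (h3.trans h2.symm)
    rw [h4] at h2
    exact Nat.not_even_iff_odd.mp (fun h => h2 (even_iff_two_dvd.mp h))
  haveI := zgroup_of_odd (h.subgroup N) hodd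
  apply solvable_ext N
  · infer_instance
  · obtain ⟨k, hk⟩ := IsPGroup.iff_card.mp P.2
    apply solvable_of_card_pow (p := 2) (k := k)
    rw [← hk]
    have h2 := hc.card_mul
    have h3 := N.card_mul_index
    exact Nat.eq_of_mul_eq_mul_left Nat.card_pos (h3.trans h2.symm)

theorem solvable_of_no3 (h : HasFPFModule G) (h3 : ∀ z : G, z * z * z = 1 → z = 1) : Group.IsSolvable G :=
  solvable_of_npc2 h (npc2_of_no3 h h3)

theorem sub_solvable_of_no3 (h : HasFPFModule G) {H : Subgroup G} (h3 : ∀ z ∈ H, z * z * z = 1 → z = 1) :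
    Group.IsSolvable H := by
  apply solvable_of_no3 (h.subgroup H)
  rintro ⟨z, hz⟩ h1
  apply Subtype.ext
  exact h3 z hz (congrArg Subtype.val h1)

/-- a unique subgroup of order three -/
theorem solvable_of_unique3 (h : HasFPFModule G) {x : G} (hx : x * x * x = 1) (hx1 : x ≠ 1)
    (hu : ∀ z : G, z * z * z = 1 → z ∈ Subgroup.zpowers x) : Group.IsSolvable G := by
  haveI : Fact (Nat.Prime 3) := ⟨Nat.prime_three⟩
  set X := Subgroup.zpowers x with hX
  have hXn : X.Normal := by
    constructor
    intro y hy g
    obtain ⟨k, rfl⟩ := hy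
    have h1 : g * x * g⁻¹ ∈ X := hu _ (by
      have : g * x * g⁻¹ * (g * x * g⁻¹) * (g * x * g⁻¹) = g * (x * x * x) * g⁻¹ := by group
      rw [this, hx]; group)
    have h2 : g * x ^ k * g⁻¹ = (g * x * g⁻¹) ^ k := by rw [conj_zpow]
    rw [h2]
    exact Subgroup.zpow_mem _ h1 k
  set f : G →* MulAut X := MulAut.conjNormal with hf
  have hcx : ∀ g ∈ f.ker, g * x = x * g := by
    intro g hg
    have h1 : f g ⟨x, Subgroup.mem_zpowers x⟩ = ⟨x, Subgroup.mem_zpowers x⟩ := by
      rw [MonoidHom.mem_ker.mp hg]; rfl
    have h2 := congrArg Subtype.val h1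
    rw [hf, MulAut.conjNormal_apply] at h2
    exact mul_inv_eq_iff_eq_mul.mp h2
  apply solvable_of_hom f
  · have e := IsCyclic.mulAutMulEquiv X
    haveI : Group.IsSolvable (ZMod (Nat.card X))ˣ := inferInstance
    exact Group.isSolvable_of_isSolvable_injective (f := e.toMonoidHom) e.injective
  · -- the centralizer of `x`
    set C := f.ker with hC
    have hnpc : Cfsg.HasNormalPComplement 3 C := by
      apply Transfer.hasNPC_of_frobenius
      intro Q hQ g hg ho
      have h1 : Subgroup.zpowers g ≤ Subgroup.centralizer (Q : Set C) := by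
        apply BG.le_centralizer_of_omega1 (p := 3) (by norm_num) (Subgroup.zpowers g) (by rw [Nat.card_zpowers]; exact ho)
          _ Q rfl hQ (by rw [Subgroup.zpowers_le]; exact hg)
        intro y hy hy3 a ha
        have h2 : (y : G) ∈ X := hu _ (by
          have := congrArg Subtype.val hy3
          have h4 : (y : G) ^ 3 = 1 := this
          rw [← h4]; simp only [pow_succ, pow_zero, one_mul])
        obtain ⟨k, hk⟩ := h2
        apply Subtype.ext
        show (a : G) * y = y * a
        simp only at hk
        rw [← hk]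
        have h5 : Commute (a : G) x := hcx a a.2
        exact (h5.zpow_right k).eq
      exact h1 (Subgroup.mem_zpowers g)
    obtain ⟨P, N, hN, hc⟩ := hnpc
    apply solvable_ext N
    · apply sub_solvable_of_no3 (h.subgroup C)
      intro z hz hz3
      by_contra hz1
      have ho : orderOf z = 3 := orderOf_eq_prime (by rw [← hz3]; simp only [pow_succ, pow_zero, one_mul]) hz1
      have h4 : (P : Subgroup C).index = Nat.card N := by
        have h2 := hc.card_mul
        have h3 := (P : Subgroup C).card_mul_index
        rw [mul_comm] at h3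
        exact Nat.eq_of_mul_eq_mul_right Nat.card_pos (h3.trans h2.symm)
      have h5 : ¬ 3 ∣ (P : Subgroup C).index := P.not_dvd_index
      apply h5
      rw [h4, ← ho, ← Subgroup.orderOf_mk z hz]
      exact orderOf_dvd_natCard _
    · obtain ⟨k, hk⟩ := IsPGroup.iff_card.mp P.2
      apply solvable_of_card_pow (p := 3) (k := k)
      rw [← hk]
      have h2 := hc.card_mul
      have h3 := N.card_mul_index
      exact Nat.eq_of_mul_eq_mul_left Nat.card_pos (h3.trans h2.symm)

end Cfsg.Agent.FC
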