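import Cfsg.Agent.FC.Struct2

/-!
Groups with a quaternion frame containing all elements of order three are solvable.
-/

set_option autoImplicit false
set_option linter.unusedSectionVars false
set_option linter.unusedSimpArgs false

namespace Cfsg.Agent.FC

open Frob (HasFPFModule)

universe u v

instance K3_char (G : Type u) [Group G] : (K3 G).Characteristic := by
  rw [Subgroup.characteristic_iff_map_le]
  intro φ
  rw [K3, MonoidHom.map_closure, Subgroup.closure_le]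
  rintro _ ⟨g, hg, rfl⟩
  apply Subgroup.subset_closure
  show φ g * φ g * φ g = 1
  rw [← map_mul, ← map_mul, show g * g * g = 1 from hg, map_one]

namespace GFrame

variable {G : Type u} [Group G] {A : Type v} [Ring A] {D : FPData G A} (Φ : GFrame D)
  [Algebra ℚ A] [Nontrivial A]

/-- the quaternion group of the frame -/
def Q : Subgroup G := Subgroup.closure {Φ.i, Φ.j}

theorem i_memQ : Φ.i ∈ Φ.Q := Subgroup.subset_closure (by simp)
theorem j_memQ : Φ.j ∈ Φ.Q := Subgroup.subset_closure (by simp)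
theorem k_memQ : Φ.k ∈ Φ.Q := by rw [← Φ.ij]; exact Φ.Q.mul_mem Φ.i_memQ Φ.j_memQ

theorem Q_le_S : Φ.Q ≤ Φ.S := by
  rw [Q, Subgroup.closure_le]
  rintro g (rfl | rfl)
  · exact Φ.i_mem
  · exact Φ.j_mem

theorem card_Q : Nat.card Φ.Q = 8 := Φ.card_quat

theorem quat_iso : Nonempty (Φ.Q ≃* QuaternionGroup 2) := by
  obtain ⟨h1, h2, h3, h4⟩ := Φ.quat_data
  exact H62.closure_equiv_quat h1 h2 h3 h4

theorem S_eq : Φ.S = Φ.Q ⊔ Subgroup.zpowers Φ.x⁻¹ := by
  apply le_antisymm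
  · rw [S, Subgroup.closure_le]
    rintro g (rfl | rfl)
    · exact Subgroup.mem_sup_left Φ.i_memQ
    · have : Φ.x⁻¹⁻¹ ∈ Φ.Q ⊔ Subgroup.zpowers Φ.x⁻¹ :=
        Subgroup.inv_mem _ (Subgroup.mem_sup_right (Subgroup.mem_zpowers _))
      rwa [inv_inv] at this
  · rw [sup_le_iff, Subgroup.zpowers_le]
    exact ⟨Φ.Q_le_S, Φ.S.inv_mem Φ.x_mem⟩

theorem sl23_iso : Nonempty (Φ.S ≃* Matrix.SpecialLinearGroup (Fin 2) (ZMod 3)) := by
  obtain ⟨h1, h2, h3, h4⟩ := Φ.quat_data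
  rw [Φ.S_eq]
  have hx3 : Φ.x⁻¹ ^ 3 = 1 := by
    rw [inv_pow, inv_eq_one, ← Φ.x3]; simp only [pow_succ, pow_zero, one_mul]
  exact H62.sup_equiv_sl23 (x := Φ.x⁻¹) h1 h2 h3 h4 (by rw [inv_inv, Φ.xi]) (by rw [inv_inv, Φ.xj, Φ.ij]) hx3
    (by rw [Ne, inv_eq_one]; exact Φ.x1)

theorem card_S : Nat.card Φ.S = 24 := by
  obtain ⟨e⟩ := Φ.sl23_iso
  rw [Nat.card_congr e.toEquiv, Nat.card_eq_fintype_card]
  decide +kernel

/-- an element commuting with `i` and `j` of order dividing three is trivial -/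
theorem eq_one_of_comm {z : G} (hz : z * z * z = 1) (hi : z * Φ.i = Φ.i * z) (hj : z * Φ.j = Φ.j * z) : z = 1 := by
  by_contra hz1
  have hc : Φ.F.Cen (D.R z) := ⟨by rw [← Φ.hI, ← map_mul, ← map_mul, hi], by rw [← Φ.hJ, ← map_mul, ← map_mul, hj]⟩
  have hx : z * Φ.x = Φ.x * z := by
    apply D.inj
    rw [map_mul, map_mul, Φ.cen_X hc]
  have hij : Φ.i ≠ Φ.j := by
    intro h
    have h1 := Φ.ij
    rw [← h] at h1
    have h2 : D.R Φ.k = -1 := by rw [← h1, map_mul, Φ.RI]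
    have h3 := Φ.RK
    rw [h2, neg_mul_neg, one_mul] at h3
    exact neg_one_ne h3.symm
  have hxi : ¬ (Φ.x * Φ.i = Φ.i * Φ.x) := by
    intro h
    apply hij
    rw [← Φ.xi, mul_assoc, ← h, inv_mul_cancel_left]
  have h1 := D.o33 Φ.x z Φ.x3 Φ.x1 hz hz1 (by
    rintro h
    rw [← h] at hi
    exact hxi hi) (by
    intro h
    apply hxi
    have : Φ.x = z⁻¹ := eq_inv_of_mul_eq_one_left h
    rw [this]
    rw [inv_mul_eq_iff_eq_mul, ← mul_assoc, hi, mul_inv_cancel_right])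
  have h2 : (Φ.x * z) ^ 3 = 1 := by
    have h3 : Commute Φ.x z := hx.symm
    rw [h3.mul_pow]
    have e1 : Φ.x ^ 3 = 1 := by rw [← Φ.x3]; simp only [pow_succ, pow_zero, one_mul]
    have e2 : z ^ 3 = 1 := by rw [← hz]; simp only [pow_succ, pow_zero, one_mul]
    rw [e1, e2, one_mul]
  have h3 := orderOf_dvd_of_pow_eq_one h2
  have h4 := Nat.le_of_dvd (by norm_num) h3
  omega

theorem S_le_normalizer [Finite G] : Φ.S ≤ Subgroup.normalizer (Φ.Q : Set G) := by
  have key : ∀ g : G, g⁻¹ * Φ.i * g ∈ Φ.Q → g⁻¹ * Φ.j * g ∈ Φ.Q → g ∈ Subgroup.normalizer (Φ.Q : Set G) := by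
    intro g h1 h2
    have h3 : Φ.Q.map (MulAut.conj g⁻¹).toMonoidHom ≤ Φ.Q := by
      nth_rewrite 1 [Q]
      rw [MonoidHom.map_closure, Subgroup.closure_le]
      rintro _ ⟨w, (rfl | rfl), rfl⟩
      · simpa using h1
      · simpa using h2
    have h4 : Φ.Q.map (MulAut.conj g⁻¹).toMonoidHom = Φ.Q := by
      apply Subgroup.eq_of_le_of_card_ge h3
      rw [Subgroup.card_map_of_injective (MulAut.conj g⁻¹).injective]
    rw [← inv_inv g]
    apply Subgroup.inv_mem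
    rw [Subgroup.mem_normalizer_iff]
    intro y
    constructor
    · intro hy
      rw [← h4]
      exact ⟨y, hy, by simp⟩
    · intro hy
      rw [← h4] at hy
      obtain ⟨w, hw, hwy⟩ := hy
      have : w = y := by
        have h5 : g⁻¹ * w * g⁻¹⁻¹ = g⁻¹ * y * g⁻¹⁻¹ := hwy
        exact mul_left_cancel (mul_right_cancel h5)
      rw [← this]; exact hw
  rw [S, Subgroup.closure_le]
  rintro g (rfl | rfl)
  · exact Subgroup.le_normalizer Φ.i_memQ
  · apply key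
    · rw [Φ.xi]; exact Φ.j_memQ
    · rw [Φ.xj]; exact Φ.k_memQ

theorem mem_Q_iff [Finite G] {y : G} : y ∈ Φ.Q ↔ y ∈ Φ.S ∧ y ^ 8 = 1 := by
  constructor
  · intro hy
    refine ⟨Φ.Q_le_S hy, ?_⟩
    have := pow_card_eq_one' (x := (⟨y, hy⟩ : Φ.Q))
    rw [Φ.card_Q] at this
    exact congrArg Subtype.val this
  · rintro ⟨hy, h8⟩
    haveI : (Φ.Q.subgroupOf Φ.S).Normal := by
      rw [Subgroup.normal_subgroupOf_iff_le_normalizer Φ.Q_le_S]
      exact Φ.S_le_normalizer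
    have hidx : (Φ.Q.subgroupOf Φ.S).index = 3 := by
      have h1 := (Φ.Q.subgroupOf Φ.S).card_mul_index
      rw [Φ.card_S, Nat.card_congr (Subgroup.subgroupOfEquivOfLe Φ.Q_le_S).toEquiv, Φ.card_Q] at h1
      omega
    have h2 := (Φ.Q.subgroupOf Φ.S).pow_index_mem ⟨y, hy⟩
    rw [hidx, Subgroup.mem_subgroupOf] at h2
    have h3 : y ^ 3 ∈ Φ.Q := h2
    have h4 : y = y ^ 3 * y ^ 3 * y ^ 3 * (y ^ 8)⁻¹ := by group
    rw [h4, h8, inv_one, mul_one]
    exact Φ.Q.mul_mem (Φ.Q.mul_mem h3 h3) h3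

theorem Q_normal [Finite G] (hS : K3 G = Φ.S) : Φ.Q.Normal := by
  constructor
  intro y hy g
  rw [mem_Q_iff] at hy ⊢
  have hn : Φ.S.Normal := by rw [← hS]; infer_instance
  refine ⟨hn.conj_mem y hy.1 g, ?_⟩
  rw [conj_pow, hy.2]; group

theorem solvable_of_frame [Finite G] (h : HasFPFModule G) (hS : ∀ z : G, z * z * z = 1 → z ∈ Φ.S) :
    Group.IsSolvable G := by
  haveI := Φ.Q_normal (Φ.K3_eq_S hS)
  obtain ⟨e1⟩ := Φ.quat_iso
  obtain ⟨e2⟩ := S3742.result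
  set f : G →* MulAut Φ.Q := MulAut.conjNormal with hf
  apply solvable_of_hom f
  · have e3 : MulAut Φ.Q ≃* MulAut (QuaternionGroup 2) := MulAut.congr e1
    have h4 : Group.IsSolvable (Equiv.Perm (Fin 4)) := S0144.result 2 3 3 1 (by norm_num) (by norm_num) (by
      rw [Nat.card_eq_fintype_card, Fintype.card_perm]; rfl)
    exact Group.isSolvable_of_isSolvable_injective (f := (e3.trans e2).toMonoidHom) (e3.trans e2).injective
  · apply sub_solvable_of_no3 h
    intro z hz hz3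
    have hc : ∀ w ∈ Φ.Q, z * w = w * z := by
      intro w hw
      have h1 : f z ⟨w, hw⟩ = ⟨w, hw⟩ := by
        rw [MonoidHom.mem_ker.mp hz]; rfl
      have h2 := congrArg Subtype.val h1
      rw [hf, MulAut.conjNormal_apply] at h2
      exact mul_inv_eq_iff_eq_mul.mp h2
    exact Φ.eq_one_of_comm hz3 (hc _ Φ.i_memQ) (hc _ Φ.j_memQ)

end GFrame

/-- non-solvable groups with fixed-point-free modules -/
theorem K3_iso_of_not_solvable {G : Type u} [Group G] [Finite G] (h : HasFPFModule G) (hns : ¬ Group.IsSolvable G) :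
    Nonempty (K3 G ≃* Matrix.SpecialLinearGroup (Fin 2) (ZMod 5)) := by
  obtain ⟨n, hn, ⟨D⟩⟩ := exists_fpData (hasMat_of_hasFPFModule h)
  haveI : Nonempty (Fin n) := ⟨⟨0, hn⟩⟩
  rcases four_cases D with h1 | ⟨x, hx, hx1, hu⟩ | ⟨Φ, hS⟩ | h1
  · exact (hns (solvable_of_no3 h h1)).elim
  · exact (hns (solvable_of_unique3 h hx hx1 hu)).elim
  · exact (hns (Φ.solvable_of_frame h hS)).elim
  · exact h1

end Cfsg.Agent.FC
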