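import Cfsg.Agent.FC.Struct3
import Cfsg.Agent.FC.Semi
import Cfsg.Agent.S0253
import Cfsg.Agent.S2540
import Cfsg.Agent.AutAlt.Basic
import Cfsg.Agent.Bal.Core

/-!
The action of a group on a normal subgroup SL(2,5).
-/

set_option autoImplicit false
set_option linter.unusedSectionVars false

namespace Cfsg.Agent.FC

open Frob (HasFPFModule)
open Subgroup

universe u v

abbrev SL5 := Matrix.SpecialLinearGroup (Fin 2) (ZMod 5)

theorem sl5_perfect : commutator SL5 = ⊤ := by
  haveI : Fact (Nat.Prime 5) := ⟨Nat.prime_five⟩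
  apply S2540.sl_perfect 2 le_rfl
  rintro ⟨-, h⟩
  rw [ZMod.card] at h
  omega

theorem sl5_not_solvable : ¬ Group.IsSolvable SL5 := by
  intro h
  haveI : Nontrivial SL5 := ⟨1, S3378.u5, by decide +kernel⟩
  have := Group.IsSolvable.commutator_lt_top_of_nontrivial SL5
  rw [sl5_perfect] at this
  exact lt_irrefl _ this

theorem psl5_iso : Nonempty (SL5 ⧸ center SL5 ≃* alternatingGroup (Fin 5)) := by
  haveI : Fact (Nat.Prime 5) := ⟨Nat.prime_five⟩
  exact S0253.result (ZMod.card 5)

variable {G : Type u} [Group G]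

theorem quot_center_congr {K : Type u} {H : Type v} [Group K] [Group H] (e : K ≃* H) :
    Nonempty (K ⧸ center K ≃* H ⧸ center H) := by
  refine ⟨QuotientGroup.congr (center K) (center H) e ?_⟩
  ext h
  constructor
  · rintro ⟨k, hk, rfl⟩
    rw [mem_center_iff]
    intro g
    obtain ⟨g', rfl⟩ := e.surjective g
    have := mem_center_iff.mp hk g'
    show e g' * e k = e k * e g'
    rw [← map_mul, ← map_mul, this]
  · intro hh
    obtain ⟨k, rfl⟩ := e.surjective h
    refine ⟨k, ?_, rfl⟩
    rw [SetLike.mem_coe, mem_center_iff]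
    intro g
    apply e.injective
    rw [map_mul, map_mul]
    exact mem_center_iff.mp hh _

theorem comm_of_perfect {K : Subgroup G} (h : commutator K = ⊤) : ⁅K, K⁆ = K := by
  have h1 : (commutator K).map K.subtype = ⁅K, K⁆ := by
    rw [_root_.commutator_def, Subgroup.map_commutator, ← MonoidHom.range_eq_map, Subgroup.range_subtype]
  rw [← h1, h, ← MonoidHom.range_eq_map, Subgroup.range_subtype]

theorem perfect_of_equiv {K : Type u} {H : Type v} [Group K] [Group H] (e : K ≃* H) (h : commutator H = ⊤) :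
    commutator K = ⊤ := by
  rw [_root_.commutator_def] at h ⊢
  apply Subgroup.map_injective (f := e.toMonoidHom) e.injective
  rw [Subgroup.map_commutator, ← MonoidHom.range_eq_map, MonoidHom.range_eq_top.mpr e.surjective, h]

/-- the hom to `Perm (Fin 5)` -/
theorem exists_hom_perm5 (K : Subgroup G) [K.Normal] (e : K ≃* SL5) :
    ∃ Ψ : G →* Equiv.Perm (Fin 5), Ψ.ker = centralizer (K : Set G) ∧ K.map Ψ = alternatingGroup (Fin 5) := by
  obtain ⟨e1⟩ := quot_center_congr e
  obtain ⟨e2⟩ := psl5_iso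
  let ε : K ⧸ center K ≃* alternatingGroup (Fin 5) := e1.trans e2
  have hperf : ⁅K, K⁆ = K := comm_of_perfect (perfect_of_equiv e sl5_perfect)
  have hN : ∀ g : G, g ∈ normalizer (K : Set G) := fun g => by rw [normalizer_eq_top]; trivial
  let ι : G →* normalizer (K : Set G) := (MonoidHom.id G).codRestrict _ hN
  let e3 : Equiv.Perm (Fin 5) ≃* MulAut (alternatingGroup (Fin 5)) :=
    MulEquiv.ofBijective MulAut.conjNormal (AutAlt.conjNormal_bijective (by simp) (by simp))
  let Ψ : G →* Equiv.Perm (Fin 5) :=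
    e3.symm.toMonoidHom.comp ((MulAut.congr ε).toMonoidHom.comp ((Bal.cq K).comp ι))
  refine ⟨Ψ, ?_, ?_⟩
  · ext g
    have h1 : g ∈ Ψ.ker ↔ ι g ∈ (Bal.cq K).ker := by
      rw [MonoidHom.mem_ker, MonoidHom.mem_ker]
      show e3.symm (MulAut.congr ε (Bal.cq K (ι g))) = 1 ↔ _
      rw [MulEquiv.map_eq_one_iff, MulEquiv.map_eq_one_iff]
    rw [h1, Bal.cq_ker hperf, Subgroup.mem_subgroupOf]
    rfl
  · have hk : ∀ (k : G) (hk : k ∈ K), Ψ k = (ε (QuotientGroup.mk ⟨k, hk⟩) : Equiv.Perm (Fin 5)) := by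
      intro k hk
      show e3.symm (MulAut.congr ε (Bal.cq K (ι k))) = _
      rw [MulEquiv.symm_apply_eq]
      have h2 : ι k = ⟨k, Subgroup.le_normalizer hk⟩ := rfl
      rw [h2, Bal.cq_of_mem hk]
      apply MulEquiv.ext
      intro a
      obtain ⟨b, rfl⟩ := ε.surjective a
      apply Subtype.ext
      show ((ε (MulAut.conj (QuotientGroup.mk ⟨k, hk⟩) (ε.symm (ε b))) : alternatingGroup (Fin 5)) : Equiv.Perm (Fin 5)) =
        (MulAut.conjNormal (ε (QuotientGroup.mk ⟨k, hk⟩) : Equiv.Perm (Fin 5)) (ε b) : Equiv.Perm (Fin 5))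
      rw [MulAut.conjNormal_apply, MulEquiv.symm_apply_apply, MulAut.conj_apply, map_mul, map_mul, map_inv]
      rfl
    ext σ
    constructor
    · rintro ⟨k, hkK, rfl⟩
      rw [hk k hkK]
      exact (ε _).2
    · intro hσ
      obtain ⟨b, hb⟩ := ε.surjective ⟨σ, hσ⟩
      obtain ⟨⟨k, hkK⟩, rfl⟩ := QuotientGroup.mk_surjective b
      refine ⟨k, hkK, ?_⟩
      rw [hk k hkK, hb]

variable [Finite G]

/-- the centralizer of `K3 G` has no elements of order three -/
theorem no3_centralizer (hc : ∀ z : G, z ∈ K3 G → (∀ w ∈ K3 G, z * w = w * z) → z * z * z = 1 → z = 1) :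
    ∀ z ∈ centralizer ((K3 G : Subgroup G) : Set G), z * z * z = 1 → z = 1 := by
  intro z hz h3
  apply hc z (Subgroup.subset_closure h3) _ h3
  intro w hw
  exact (mem_centralizer_iff.mp hz w hw).symm

theorem sl5_center3 : ∀ z : SL5, (∀ w : SL5, z * w = w * z) → z * z * z = 1 → z = 1 := by
  intro z hz h3
  have h1 := hz S3378.u5
  have h2 := hz S3378.w5
  revert z
  decide +kernel

theorem solvable_centralizer_K3 (h : HasFPFModule G) (e : K3 G ≃* SL5) :
    Group.IsSolvable (centralizer ((K3 G : Subgroup G) : Set G)) := by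
  apply sub_solvable_of_no3 h
  apply no3_centralizer
  intro z hz hc h3
  have h1 := sl5_center3 (e ⟨z, hz⟩) (by
    intro w
    obtain ⟨w', rfl⟩ := e.surjective w
    rw [← map_mul, ← map_mul]
    congr 1
    exact Subtype.ext (hc w' w'.2)) (by
    rw [← map_mul, ← map_mul, ← map_one e]
    congr 1
    exact Subtype.ext h3)
  rw [MulEquiv.map_eq_one_iff] at h1
  exact congrArg Subtype.val h1

/-- Zassenhaus: perfect groups with fixed-point-free modules -/
theorem iso_of_perfect (h : HasFPFModule G) (hp : commutator G = ⊤) [Nontrivial G] : Nonempty (G ≃* SL5) := by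
  have hns : ¬ Group.IsSolvable G := by
    intro hs
    have := Group.IsSolvable.commutator_lt_top_of_nontrivial G
    rw [hp] at this
    exact lt_irrefl _ this
  obtain ⟨e⟩ := K3_iso_of_not_solvable h hns
  obtain ⟨Ψ, hker, hmap⟩ := exists_hom_perm5 (K3 G) e
  have hC := solvable_centralizer_K3 h e
  -- sign ∘ Ψ is trivial
  have hsign : ∀ g : G, Equiv.Perm.sign (Ψ g) = 1 := by
    intro g
    have h1 : commutator G ≤ (Equiv.Perm.sign.comp Ψ).ker := Abelianization.commutator_subset_ker _
    rw [hp] at h1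
    exact h1 (Subgroup.mem_top g)
  have hsup : K3 G ⊔ centralizer ((K3 G : Subgroup G) : Set G) = ⊤ := by
    rw [eq_top_iff]
    intro g _
    have h1 : Ψ g ∈ (K3 G).map Ψ := by
      rw [hmap]; exact hsign g
    obtain ⟨k, hk, hkg⟩ := h1
    have h2 : k⁻¹ * g ∈ centralizer ((K3 G : Subgroup G) : Set G) := by
      rw [← hker, MonoidHom.mem_ker, map_mul, map_inv, hkg, inv_mul_cancel]
    have h3 : g = k * (k⁻¹ * g) := by group
    rw [h3]
    exact mul_mem (mem_sup_left hk) (mem_sup_right h2)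
  have hsolv : Group.IsSolvable (G ⧸ K3 G) := by
    have hs : Function.Surjective ((QuotientGroup.mk' (K3 G)).comp (centralizer ((K3 G : Subgroup G) : Set G)).subtype) := by
      intro q
      obtain ⟨g, rfl⟩ := QuotientGroup.mk_surjective q
      have hg : g ∈ K3 G ⊔ centralizer ((K3 G : Subgroup G) : Set G) := by rw [hsup]; trivial
      obtain ⟨k, hk, c, hc, rfl⟩ := Subgroup.mem_sup_of_normal_left.mp hg
      refine ⟨⟨c, hc⟩, ?_⟩
      show (QuotientGroup.mk c : G ⧸ K3 G) = QuotientGroup.mk (k * c)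
      rw [QuotientGroup.eq]
      have h4 := mem_centralizer_iff.mp hc k hk
      rw [h4, inv_mul_cancel_left]
      exact hk
    exact Group.isSolvable_of_surjective hs
  have htop : K3 G = ⊤ := by
    by_contra hne
    haveI : Nontrivial (G ⧸ K3 G) := QuotientGroup.nontrivial_iff.mpr hne
    have h1 := Group.IsSolvable.commutator_lt_top_of_nontrivial (G ⧸ K3 G)
    apply h1.ne
    rw [eq_top_iff]
    have h2 : (commutator G).map (QuotientGroup.mk' (K3 G)) ≤ commutator (G ⧸ K3 G) := by
      rw [_root_.commutator_def, Subgroup.map_commutator, _root_.commutator_def]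
      exact Subgroup.commutator_mono le_top le_top
    rw [hp, ← MonoidHom.range_eq_map, MonoidHom.range_eq_top.mpr (QuotientGroup.mk'_surjective _)] at h2
    exact h2
  exact ⟨(Subgroup.topEquiv.symm.trans (MulEquiv.subgroupCongr htop.symm)).trans e⟩

end Cfsg.Agent.FC
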