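import Cfsg.Agent.FC.Struct4

/-!
Structure of non-solvable Frobenius complements.
-/

set_option autoImplicit false
set_option linter.unusedSectionVars false

namespace Cfsg.Agent.FC

open Frob (HasFPFModule)
open Subgroup

universe u v

/-- change of universe -/
theorem hasFPFModule_lift {A : Type} [Group A] {B : Type u} [Group B] (h : HasFPFModule A) (f : B →* A)
    (hf : Function.Injective f) : HasFPFModule B := by
  obtain ⟨W, i1, i2, i3, φ, hφ⟩ := h
  refine ⟨ULift.{u} W, inferInstance, inferInstance, inferInstance,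
    ((MulAut.congr (MulEquiv.ulift : ULift.{u} W ≃* W).symm).toMonoidHom.comp φ).comp f, ?_⟩
  intro b hb w hw
  have h1 : φ (f b) w.down = w.down := congrArg ULift.down hw
  have h2 := hφ (f b) (fun h => hb (hf (by rw [h, map_one]))) _ h1
  exact ULift.ext _ _ h2

theorem hasFPFModule_of_FC {G : Type u} [Group G]
    (hFC : ∃ (L : Type) (_ : Group L) (_ : Finite L) (H : Subgroup L), Cfsg.IsFrobeniusComplement H ∧ Nonempty (G ≃* H)) :
    HasFPFModule G := by
  obtain ⟨L, _, _, H, hH, ⟨e⟩⟩ := hFC
  exact hasFPFModule_lift (Frob.IsFrobeniusComplement.hasFPFModule hH) e.toMonoidHom e.injective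

variable {G : Type u} [Group G] [Finite G]

/-- commuting elements of the same prime order -/
theorem mem_zpowers_of_comm (h : HasFPFModule G) {p : ℕ} [hp : Fact p.Prime] {x y : G} (hx : x ^ p = 1) (hx1 : x ≠ 1)
    (hy : y ^ p = 1) (hxy : x * y = y * x) : y ∈ zpowers x := by
  by_cases hy1 : y = 1
  · rw [hy1]; exact one_mem _
  let X : Subgroup G := zpowers x ⊔ zpowers y
  have hc : ∀ a ∈ zpowers x, ∀ b ∈ zpowers y, a * b = b * a := by
    rintro _ ⟨k, rfl⟩ _ ⟨l, rfl⟩
    have : Commute x y := hxy
    exact ((this.zpow_left k).zpow_right l).eq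
  have hn : zpowers x ≤ normalizer ((zpowers y : Subgroup G) : Set G) := by
    intro a ha
    rw [mem_normalizer_iff]
    intro b
    constructor
    · intro hb
      rw [hc a ha b hb, mul_inv_cancel_right]; exact hb
    · intro hb
      have h1 := hc a ha _ hb
      have h2 : a * b * a⁻¹ = b := by
        have : a * (a * b * a⁻¹) = a * b := by rw [h1, inv_mul_cancel_right]
        exact mul_left_cancel this
      rwa [h2] at hb
  have hpX : IsPGroup p X := by
    have h1 : IsPGroup p (zpowers x) := by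
      rw [IsPGroup.iff_card, Nat.card_zpowers]
      exact ⟨1, by rw [pow_one]; exact orderOf_eq_prime hx hx1⟩
    have h2 : IsPGroup p (zpowers y) := by
      rw [IsPGroup.iff_card, Nat.card_zpowers]
      exact ⟨1, by rw [pow_one]; exact orderOf_eq_prime hy hy1⟩
    exact IsPGroup.to_sup_of_normal_right' h1 h2 hn
  have hxX : zpowers x ≤ X := le_sup_left
  have hyX : zpowers y ≤ X := le_sup_right
  have h1 := (h.subgroup X).unique_subgroup_of_isPGroup hpX ((zpowers x).subgroupOf X) ((zpowers y).subgroupOf X)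
    (by rw [Nat.card_congr (subgroupOfEquivOfLe hxX).toEquiv, Nat.card_zpowers]; exact orderOf_eq_prime hx hx1)
    (by rw [Nat.card_congr (subgroupOfEquivOfLe hyX).toEquiv, Nat.card_zpowers]; exact orderOf_eq_prime hy hy1)
  have h2 : (⟨y, hyX (mem_zpowers y)⟩ : X) ∈ (zpowers y).subgroupOf X := by
    rw [mem_subgroupOf]; exact mem_zpowers y
  rw [← h1, mem_subgroupOf] at h2
  exact h2

theorem sl5_ord5 : ∃ y : SL5, y ^ 5 = 1 ∧ y ≠ 1 ∧ ∀ k : ℕ, y ^ k ≠ 1 → ∃ w : SL5, w * y ^ k ≠ y ^ k * w := by
  refine ⟨S3378.u5, by decide +kernel, by decide +kernel, ?_⟩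
  have h : ∀ k < 5, S3378.u5 ^ k ≠ 1 → ∃ w ∈ ({S3378.w5} : Finset SL5), w * S3378.u5 ^ k ≠ S3378.u5 ^ k * w := by decide +kernel
  intro k hk
  have h5 : S3378.u5 ^ k = S3378.u5 ^ (k % 5) := by
    conv_lhs => rw [← Nat.div_add_mod k 5, pow_add, pow_mul]
    rw [show S3378.u5 ^ 5 = 1 by decide +kernel, one_pow, one_mul]
  rw [h5] at hk ⊢
  obtain ⟨w, -, hw⟩ := h (k % 5) (Nat.mod_lt _ (by norm_num)) hk
  exact ⟨w, hw⟩

theorem sl5_ord4 : ∃ y : SL5, y * y ≠ 1 ∧ y * y * (y * y) = 1 ∧ ∃ w : SL5, w * y ≠ y * w :=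
  ⟨S3378.w5, by decide +kernel, by decide +kernel, S3378.u5, by decide +kernel⟩

section

variable {K : Subgroup G} (e : K ≃* SL5)

theorem no_order4_centralizer (h : HasFPFModule G) (e : K ≃* SL5) {z : G} (hz : z ∈ centralizer (K : Set G))
    (h4 : z * z * (z * z) = 1) : z * z = 1 := by
  by_contra h2
  obtain ⟨y, hy2, hy4, w, hw⟩ := sl5_ord4
  set i : K := e.symm y
  have hi : e i = y := e.apply_symm_apply y
  have hi2 : (i : G) * i ≠ 1 := by
    intro h1
    apply hy2
    rw [← hi, ← map_mul, ← map_one e]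
    congr 1
    exact Subtype.ext h1
  have hi4 : (i : G) * i * (i * i) = 1 := by
    have h1 : i * i * (i * i) = 1 := by
      apply e.injective
      rw [map_mul, map_mul, hi, hy4, map_one]
    exact congrArg Subtype.val h1
  have hcomm : (i : G) * z = z * i := mem_centralizer_iff.mp hz i i.2
  have heq : (i : G) * i = z * z := h.eq_of_involution hi4 hi2 h4 h2
  -- the product is an involution or trivial
  have h5 : (i : G) * z⁻¹ * (i * z⁻¹) = 1 := by
    have h6 : Commute (i : G) z⁻¹ := (show Commute (i : G) z from hcomm).inv_right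
    calc (i : G) * z⁻¹ * (i * z⁻¹) = (i * i) * (z * z)⁻¹ := by
          rw [mul_inv_rev, mul_assoc, ← mul_assoc z⁻¹, ← h6.eq]; group
      _ = 1 := by rw [heq, mul_inv_cancel]
  have h6 : z = i ∨ z = (i : G)⁻¹ := by
    by_cases h7 : (i : G) * z⁻¹ = 1
    · left; exact (mul_inv_eq_one.mp h7).symm
    · right
      have h8 := h.eq_of_involution h5 h7 hi4 hi2
      have h9 : z⁻¹ = i := mul_left_cancel h8
      rw [← h9, inv_inv]
  -- hence `i` is central in `K`
  have h7 : ∀ k ∈ K, k * (i : G) = i * k := by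
    intro k hk
    have h8 := mem_centralizer_iff.mp hz k hk
    rcases h6 with h6 | h6
    · rw [← h6]; exact h8
    · have h9 : Commute k (i : G)⁻¹ := by rw [← h6]; exact h8
      have := h9.inv_right
      rw [inv_inv] at this
      exact this.eq
  apply hw
  obtain ⟨w', rfl⟩ := e.surjective w
  rw [← hi, ← map_mul, ← map_mul]
  congr 1
  exact Subtype.ext (h7 w' w'.2)

theorem no_order5_centralizer (h : HasFPFModule G) (e : K ≃* SL5) {z : G} (hz : z ∈ centralizer (K : Set G))
    (h5 : z ^ 5 = 1) : z = 1 := by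
  classical
  by_contra hz1
  haveI : Fact (Nat.Prime 5) := ⟨Nat.prime_five⟩
  obtain ⟨y, hy5, hy1, hyc⟩ := sl5_ord5
  set i : K := e.symm y
  have hi : e i = y := e.apply_symm_apply y
  have hi1 : (i : G) ≠ 1 := by
    intro h1
    apply hy1
    rw [← hi, ← map_one e]
    congr 1
    exact Subtype.ext h1
  have hi5 : (i : G) ^ 5 = 1 := by
    have h1 : i ^ 5 = 1 := by
      apply e.injective
      rw [map_pow, hi, hy5, map_one]
    exact congrArg Subtype.val h1
  have hcomm : (i : G) * z = z * i := mem_centralizer_iff.mp hz i i.2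
  have h1 := mem_zpowers_of_comm h hi5 hi1 h5 hcomm
  have hfin : IsOfFinOrder (i : G) := isOfFinOrder_of_finite _
  rw [hfin.mem_zpowers_iff_mem_range_orderOf] at h1
  obtain ⟨k, -, hk⟩ := Finset.mem_image.mp h1
  obtain ⟨w, hw⟩ := hyc k (by
    intro h2
    apply hz1
    rw [← hk]
    have h3 : i ^ k = 1 := by
      apply e.injective
      rw [map_pow, hi, h2, map_one]
    exact congrArg Subtype.val h3)
  apply hw
  obtain ⟨w', rfl⟩ := e.surjective w
  rw [← hi, ← map_pow, ← map_mul, ← map_mul]
  congr 1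
  apply Subtype.ext
  show (w' : G) * (i : G) ^ k = (i : G) ^ k * w'
  rw [hk]
  exact mem_centralizer_iff.mp hz w' w'.2

end

/-- two-subgroups without elements of order four -/
theorem card_le_two (h : HasFPFModule G) {P : Subgroup G} (hP : IsPGroup 2 P)
    (h4 : ∀ z ∈ P, z * z * (z * z) = 1 → z * z = 1) : Nat.card P ≤ 2 := by
  have hsq : ∀ z ∈ P, z * z = 1 := by
    intro z hz
    obtain ⟨k, hk⟩ := hP ⟨z, hz⟩
    have hk' : z ^ 2 ^ k = 1 := congrArg Subtype.val hk
    clear hk
    induction k with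
    | zero => rw [pow_zero, pow_one] at hk'; rw [hk', mul_one]
    | succ k ih =>
      rcases k with _ | k
      · rw [zero_add, pow_one, pow_two] at hk'; exact hk'
      · apply ih
        have h1 : z ^ 2 ^ (k + 1) = z ^ 2 ^ k * z ^ 2 ^ k := by rw [← pow_add]; congr 1; rw [pow_succ]; ring
        rw [h1]
        apply h4 _ (P.pow_mem hz _)
        rw [← pow_add, ← pow_add, ← hk']
        congr 1; rw [pow_succ, pow_succ]; ring
  by_contra hcon
  push Not at hcon
  -- two distinct involutions
  obtain ⟨a, ha⟩ : ∃ a : P, a ≠ 1 := by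
    haveI : Nontrivial P := Finite.one_lt_card_iff_nontrivial.mp (by omega)
    exact exists_ne 1
  have h1 : ∀ b : P, b = 1 ∨ b = a := by
    intro b
    by_cases hb : b = 1
    · exact Or.inl hb
    · right
      apply Subtype.ext
      exact h.eq_of_involution (hsq b b.2) (fun h => hb (Subtype.ext h)) (hsq a a.2) (fun h => ha (Subtype.ext h))
  have h2 : Nat.card P ≤ 2 := by
    have h3 : (Set.univ : Set P) ⊆ {1, a} := by
      intro b _
      rcases h1 b with h | h
      · left; exact h
      · right; exact h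
    have h4 := Set.ncard_le_ncard h3 (Set.toFinite _)
    rw [Set.ncard_univ] at h4
    refine h4.trans ((Set.ncard_insert_le _ _).trans ?_)
    rw [Set.ncard_singleton]
  omega

/-- structure of the centralizer of SL(2,5): odd normal complement -/
theorem exists_odd_part (h : HasFPFModule G) (e : K3 G ≃* SL5) :
    ∃ M : Subgroup G, M ≤ centralizer ((K3 G : Subgroup G) : Set G) ∧
      centralizer ((K3 G : Subgroup G) : Set G) ≤ K3 G ⊔ M ∧ (Nat.card M).Coprime 30 := by
  set C := centralizer ((K3 G : Subgroup G) : Set G) with hC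
  haveI : Fact (Nat.Prime 2) := ⟨Nat.prime_two⟩
  have hno3 : ∀ z ∈ C, z * z * z = 1 → z = 1 := by
    apply no3_centralizer
    intro z hz hc h3
    have h1 := sl5_center3 (e ⟨z, hz⟩) (by
      intro w
      obtain ⟨w', rfl⟩ := e.surjective w
      rw [← map_mul, ← map_mul]
      congr 1
      exact Subtype.ext (hc w' w'.2)) (by
      rw [← map_mul, ← map_mul, ← map_one e]
      congr 1
      exact Subtype.ext h3)
    rw [MulEquiv.map_eq_one_iff] at h1
    exact congrArg Subtype.val h1
  obtain ⟨P, N, hN, hc⟩ := npc2_of_no3 (h.subgroup C) (by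
    rintro ⟨z, hz⟩ h1
    exact Subtype.ext (hno3 z hz (congrArg Subtype.val h1)))
  have hcardP : Nat.card P ≤ 2 := by
    apply card_le_two (h.subgroup C) P.2
    rintro ⟨z, hz⟩ - h4
    apply Subtype.ext
    exact no_order4_centralizer h e hz (congrArg Subtype.val h4)
  have hodd : ¬ 2 ∣ Nat.card N := by
    have h4 : (P : Subgroup C).index = Nat.card N := by
      have h2 := hc.card_mul_card
      have h3 := (P : Subgroup C).card_mul_index
      rw [mul_comm] at h3
      exact Nat.eq_of_mul_eq_mul_right Nat.card_pos (h3.trans h2.symm)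
    rw [← h4]
    exact P.not_dvd_index
  -- an involution of K3
  obtain ⟨y, hy2, hy4, -⟩ := sl5_ord4
  set i : K3 G := e.symm y
  have hi : e i = y := e.apply_symm_apply y
  have hi2 : (i : G) * i ≠ 1 := by
    intro h1
    apply hy2
    rw [← hi, ← map_mul, ← map_one e]
    congr 1
    exact Subtype.ext h1
  have hi4 : (i : G) * i * (i * i) = 1 := by
    have h1 : i * i * (i * i) = 1 := by
      apply e.injective
      rw [map_mul, map_mul, hi, hy4, map_one]
    exact congrArg Subtype.val h1
  have hPK : ∀ z ∈ (P : Subgroup C), (z : G) ∈ K3 G := by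
    intro z hz
    by_cases hz1 : z = 1
    · rw [hz1]; exact one_mem _
    have hz2 : z * z = 1 := by
      have h1 := pow_card_eq_one' (x := (⟨z, hz⟩ : (P : Subgroup C)))
      have h2 : Nat.card P = 1 ∨ Nat.card P = 2 := by
        have := Nat.card_pos (α := P)
        omega
      rcases h2 with h2 | h2
      · rw [h2, pow_one] at h1
        exact (hz1 (congrArg Subtype.val h1)).elim
      · rw [h2, pow_two] at h1
        exact congrArg Subtype.val h1
    have h3 := h.eq_of_involution (show (z : G) * z = 1 from congrArg Subtype.val hz2) (fun h => hz1 (Subtype.ext h)) hi4 hi2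
    rw [h3]
    exact mul_mem i.2 i.2
  refine ⟨N.map C.subtype, ?_, ?_, ?_⟩
  · rintro _ ⟨z, -, rfl⟩
    exact z.2
  · intro z hz
    have h1 : (⟨z, hz⟩ : C) ∈ N ⊔ (P : Subgroup C) := by
      rw [hc.sup_eq_top]; trivial
    obtain ⟨n, hn, p, hp, hnp⟩ := Subgroup.mem_sup_of_normal_left.mp h1
    have h2 : z = n * p := (congrArg Subtype.val hnp).symm
    rw [h2]
    exact mul_mem (mem_sup_right ⟨n, hn, rfl⟩) (mem_sup_left (hPK p hp))
  · have hcard : Nat.card (N.map C.subtype) = Nat.card N := Subgroup.card_map_of_injective C.subtype_injective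
    have h3 : ¬ 3 ∣ Nat.card (N.map C.subtype) := by
      intro h3
      haveI : Fact (Nat.Prime 3) := ⟨Nat.prime_three⟩
      obtain ⟨⟨z, hz⟩, ho⟩ := exists_prime_orderOf_dvd_card' 3 h3
      obtain ⟨n, hn, rfl⟩ := hz
      have h4 : C.subtype n * C.subtype n * C.subtype n = 1 := by
        have h5 := pow_orderOf_eq_one (⟨C.subtype n, ⟨n, hn, rfl⟩⟩ : N.map C.subtype)
        rw [ho] at h5
        have h6 : C.subtype n ^ 3 = 1 := congrArg Subtype.val h5
        rw [← h6]; simp only [pow_succ, pow_zero, one_mul]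
      have h7 := hno3 _ n.2 h4
      rw [← Subgroup.orderOf_coe] at ho
      have h8 : C.subtype n = 1 := h7
      change orderOf (C.subtype n) = 3 at ho
      rw [h8, orderOf_one] at ho
      omega
    have h5 : ¬ 5 ∣ Nat.card (N.map C.subtype) := by
      intro h5
      haveI : Fact (Nat.Prime 5) := ⟨Nat.prime_five⟩
      obtain ⟨⟨z, hz⟩, ho⟩ := exists_prime_orderOf_dvd_card' 5 h5
      obtain ⟨n, hn, rfl⟩ := hz
      have h4 : C.subtype n ^ 5 = 1 := by
        have h5 := pow_orderOf_eq_one (⟨C.subtype n, ⟨n, hn, rfl⟩⟩ : N.map C.subtype)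
        rw [ho] at h5
        exact congrArg Subtype.val h5
      have h7 := no_order5_centralizer h e n.2 h4
      rw [← Subgroup.orderOf_coe] at ho
      have h8 : C.subtype n = 1 := h7
      change orderOf (C.subtype n) = 5 at ho
      rw [h8, orderOf_one] at ho
      omega
    have h2 : ¬ 2 ∣ Nat.card (N.map C.subtype) := by rw [hcard]; exact hodd
    have e30 : (30 : ℕ) = 2 * (3 * 5) := by norm_num
    rw [e30]
    apply Nat.Coprime.mul_right
    · exact ((Nat.Prime.coprime_iff_not_dvd Nat.prime_two).mpr h2).symm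
    · apply Nat.Coprime.mul_right
      · exact ((Nat.Prime.coprime_iff_not_dvd Nat.prime_three).mpr h3).symm
      · exact ((Nat.Prime.coprime_iff_not_dvd Nat.prime_five).mpr h5).symm

end Cfsg.Agent.FC
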